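import Cfsg.Agent.H269.T6.Nf

/-!
# Two classes of order prime to 6 through a Levi subgroup `A₂ × A₁` (S2464, helper269)

`TabT.t6` : the row, from the product theorems in `SL₃(K)` and `SL₂(K)`.
-/

set_option autoImplicit false
set_option linter.unusedSectionVars false

namespace Cfsg.Agent.H269.T6

open CoxeterSystem Cfsg.Agent.ChevalleyStructure.CoxeterGeom Cfsg.Agent.Tits.Roots Cfsg.Agent.Tits.Core
  Cfsg.Agent.Nodes.Reps Cfsg.Agent.Nodes.BNOf Cfsg.Agent.Nodes.RGDLib Cfsg.Agent.Nodes.Bruhat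
  Cfsg.Agent.Nodes.OppDec Cfsg.Agent.Nodes.LeviDec Cfsg.Agent.Nodes.KindChev Cfsg.Agent.Nodes.ChevCls
  Cfsg.Agent.OddHalf.NI.ModelChev Cfsg.Agent.Nodes.StabComb
  Cfsg.Agent.H162.GaussDec Cfsg.Agent.H162.GaussLevi Cfsg.Agent.H162.GaussSL Cfsg.Agent.H162.GaussReg
  Cfsg.Agent.H162.GaussPQ
  Cfsg.Agent.H928.Ore.Frame Cfsg.Agent.H928.Ore.Fix Cfsg.Agent.H928.Ore.Block
open Cfsg.Lie Cfsg.Agent.ChevalleyStructure Cfsg.Agent.ChevalleyStructure.Elts
  Cfsg.Agent.ChevalleyStructure.RootVec Cfsg.Agent.ChevalleyStructure.NPerm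
  Cfsg.Agent.ChevalleyStructure.CoxeterGeomTypes Cfsg.Agent.Nodes.RGDChev Cfsg.Agent.KFacts.RgdChevCoord
open Cfsg.Agent.TitsThree.KExcRT Cfsg.Agent.H194.Ore
open Cfsg.Agent.FixBN.FieldRGD (uu vv dd ww)
open Cfsg.Agent.H162.GaussExc (coord)
open scoped MatrixGroups

universe u v

/-! ### Lower times diagonal times upper -/

section

variable {K : Type*} [Field K]

theorem ns3 {L U : Matrix.SpecialLinearGroup (Fin 3) K} (hL : L ∈ LT 3 K) (hU : U ∈ UT 3 K) {t : Kˣ}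
    (ht : t * t ≠ 1) (a : K) :
    ((L * dg3 t 1 * U : Matrix.SpecialLinearGroup (Fin 3) K) : Matrix (Fin 3) (Fin 3) K) ≠
      a • (1 : Matrix (Fin 3) (Fin 3) K) := by
  intro h
  rw [mem_LT] at hL
  rw [mem_UT] at hU
  have hc : ((L * dg3 t 1 * U : Matrix.SpecialLinearGroup (Fin 3) K) : Matrix (Fin 3) (Fin 3) K) =
      L.1 * Matrix.diagonal ![(t : K), ((t⁻¹ * 1 : Kˣ) : K), (((1 : Kˣ)⁻¹ : Kˣ) : K)] * U.1 := rfl
  rw [hc] at h
  have h00 := congrFun (congrFun h 0) 0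
  have h01 := congrFun (congrFun h 0) 1
  have h11 := congrFun (congrFun h 1) 1
  have ht0 : (t : K) ≠ 0 := t.ne_zero
  rw [Matrix.mul_apply, Fin.sum_univ_three, Matrix.mul_diagonal, Matrix.mul_diagonal, Matrix.mul_diagonal,
    hL.2, hL.1 0 1 (by decide), hL.1 0 2 (by decide), hU.2] at h00
  rw [Matrix.mul_apply, Fin.sum_univ_three, Matrix.mul_diagonal, Matrix.mul_diagonal, Matrix.mul_diagonal,
    hL.2, hL.1 0 1 (by decide), hL.1 0 2 (by decide)] at h01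
  rw [Matrix.mul_apply, Fin.sum_univ_three, Matrix.mul_diagonal, Matrix.mul_diagonal, Matrix.mul_diagonal,
    hL.2, hL.1 1 2 (by decide), hU.2] at h11
  simp only [Matrix.cons_val_zero, Matrix.cons_val_one, Matrix.smul_apply, Matrix.one_apply_eq, smul_eq_mul,
    one_mul, zero_mul, add_zero, mul_one, Matrix.one_apply_ne (show (0 : Fin 3) ≠ 1 by decide), mul_zero] at h00 h01 h11
  have h2 : U.1 0 1 = 0 := (mul_eq_zero.1 h01).resolve_left ht0
  rw [h2, mul_zero, zero_add, ← h00] at h11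
  apply ht
  have h3 : t⁻¹ = t := Units.ext h11
  calc t * t = t⁻¹ * t := by rw [h3]
    _ = 1 := inv_mul_cancel t

theorem ns2 {L U : SL(2, K)} (hL : L ∈ LT 2 K) (hU : U ∈ UT 2 K) {t : Kˣ} (ht : t * t ≠ 1) (a : K) :
    ((L * dd (t : K) t.ne_zero * U : SL(2, K)) : Matrix (Fin 2) (Fin 2) K) ≠
      a • (1 : Matrix (Fin 2) (Fin 2) K) := by
  intro h
  rw [mem_LT] at hL
  rw [mem_UT] at hU
  have hc : ((L * dd (t : K) t.ne_zero * U : SL(2, K)) : Matrix (Fin 2) (Fin 2) K) =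
      L.1 * !![(t : K), 0; 0, (t : K)⁻¹] * U.1 := rfl
  rw [hc] at h
  have h00 := congrFun (congrFun h 0) 0
  have h01 := congrFun (congrFun h 0) 1
  have h11 := congrFun (congrFun h 1) 1
  have ht0 : (t : K) ≠ 0 := t.ne_zero
  have l0 := hL.2 0
  have l1 := hL.2 1
  have l2 := hL.1 0 1 (by decide)
  have u0 := hU.2 0
  have u1 := hU.2 1
  have u2 := hU.1 1 0 (by decide)
  simp [Matrix.mul_apply, Fin.sum_univ_two, l0, l1, l2, u0, u1, u2] at h00 h01 h11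
  rw [h01, mul_zero, zero_add, ← h00] at h11
  apply ht
  apply Units.ext
  rw [Units.val_mul, Units.val_one]
  nth_rw 1 [← h11]
  exact inv_mul_cancel₀ ht0

theorem exists_unit4 [Finite K] (hK : 4 ≤ Nat.card K) : ∃ t : Kˣ, t * t ≠ 1 := by
  by_contra hcon
  push Not at hcon
  have h1 : ∀ x : K, x = 0 ∨ x = 1 ∨ x = -1 := by
    intro x
    by_cases hx : x = 0
    · exact .inl hx
    · right
      have h2 := hcon (Units.mk0 x hx)
      have h3 : x * x = 1 := by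
        have := congrArg Units.val h2
        simpa using this
      exact mul_self_eq_one_iff.1 h3
  classical
  have := Fintype.ofFinite K
  have h2 : (Finset.univ : Finset K) ⊆ {0, 1, -1} := by
    intro x _
    simp only [Finset.mem_insert, Finset.mem_singleton]
    exact h1 x
  have h3 := Finset.card_le_card h2
  rw [Finset.card_univ, ← Nat.card_eq_fintype_card] at h3
  have h4 : ({0, 1, -1} : Finset K).card ≤ 3 := Finset.card_le_three
  omega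

end

/-- diagonalisation over every extension -/
def DD {K : Type u} [Field K] (Y : SL(2, K)) (s : ℕ) : Prop :=
  ∀ (K' : Type u) [Field K'] [Finite K'] (ι : K →+* K'), ∃ (K'' : Type u) (_ : Field K'') (_ : Finite K'')
    (ι' : K' →+* K'') (c : K''ˣ) (Q : SL(2, K'')), Matrix.SpecialLinearGroup.map ι'
      (Matrix.SpecialLinearGroup.map ι Y) = Q * dd (c : K'') c.ne_zero * Q⁻¹ ∧ c ≠ 1 ∧ c ^ s = 1

theorem coprime_of_pow {G : Type*} [Group G] {g : G} {n : ℕ} (h : g ^ n = 1) (hn : Nat.Coprime n 6) :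
    Nat.Coprime (orderOf g) 6 := Nat.Coprime.coprime_dvd_left (orderOf_dvd_of_pow_eq_one h) hn

/-- **The row.** -/
theorem TabT.t6 {D : ChevalleyDatum} {l : ℕ} {M : CoxeterMatrix (Fin l)} (hp : IsType D l M) {K : Type u} [Field K]
    [Finite K] (hK : 4 ≤ Nat.card K) {J : List (Fin l)} {r : Fin 3 → Fin 3 → ℕ} {ε : ℤ} {i j k : Fin l}
    (T : TabT D l J r ε i j k) (hε : ε * ε = 1) (hG : IsSimpleGroup ↥(D.group K) ∧ ¬ IsMulCommutative ↥(D.group K))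
    (hM : ∀ J : Finset (Fin l), J = ∅ ∨ J = Finset.univ ∨ ∃ a ∈ J, ∃ b, b ∉ J ∧ M a b ≠ 2)
    {c3 : Matrix.SpecialLinearGroup (Fin 3) K} {n : ℕ} (hirr : Irreducible (c3 : Matrix (Fin 3) (Fin 3) K).charpoly)
    (hn : c3 ^ n = 1) (hn6 : Nat.Coprime n 6)
    (h3 : ∀ A : Matrix.SpecialLinearGroup (Fin 3) K, (∀ a : K, (A : Matrix (Fin 3) (Fin 3) K) ≠ a • 1) →
      ∃ a b : Matrix.SpecialLinearGroup (Fin 3) K, A = (a * c3 * a⁻¹) * (b * c3 * b⁻¹))
    {x2 y2 : SL(2, K)} {s : ℕ} (hs6 : Nat.Coprime s 6) (hns : Nat.Coprime n s) (hx2 : x2 ^ s = 1) (hy2 : y2 ^ s = 1)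
    (hxd : DD x2 s) (hyd : DD y2 s)
    (h2 : ∀ A : SL(2, K), (∀ a : K, (A : Matrix (Fin 2) (Fin 2) K) ≠ a • 1) →
      ∃ a b : SL(2, K), A = (a * x2 * a⁻¹) * (b * y2 * b⁻¹)) : Cfsg.Agent.H777.T6.T6 ↥(D.group K) := by
  obtain ⟨p, hpc⟩ := CharP.exists K
  have : Fact p.Prime := ⟨(CharP.char_is_prime_or_zero K p).resolve_right (CharP.char_ne_zero_of_finite K p)⟩
  have := finite_W hp M.toCoxeterSystem
  have hl : 0 < l := i.pos
  have : Nonempty (Fin l) := ⟨⟨0, hl⟩⟩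
  have R := rgd (K := K) hp M.toCoxeterSystem p
  obtain ⟨φ, hφ⟩ := Cfsg.Agent.H162.GaussExcMain.exists_hom_D hp (K := K) hε T.ra T.rb T.rc T.rn
  obtain ⟨t, ht⟩ := exists_unit4 hK
  have hcm := T.comm hp hφ
  -- the two elements
  have hpow : ∀ (A : Matrix.SpecialLinearGroup (Fin 3) K) (B : SL(2, K)), A ^ n = 1 → B ^ s = 1 →
      (φ A * sl hp k B) ^ (n * s) = 1 := by
    intro A B hA hB
    have h4 : Commute (φ A) (sl hp k B) := hcm A B
    rw [h4.mul_pow, ← map_pow, ← map_pow, pow_mul, hA, one_pow, mul_comm n s, pow_mul, hB, one_pow, map_one, map_one,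
      one_mul]
  have hns6 : Nat.Coprime (n * s) 6 := Nat.Coprime.mul_left hn6 hs6
  obtain ⟨fx, fx'⟩ := T.nf hp hε hφ hns hirr hn hxd
  obtain ⟨fy, fy'⟩ := T.nf hp hε hφ hns hirr hn hyd
  have hmem : ∀ (A : Matrix.SpecialLinearGroup (Fin 3) K) (B : SL(2, K)), φ A * sl hp k B ∈
      LJ M.toCoxeterSystem hp.isCartan (TT D K) (XX D l K) {m | m ∈ J} := fun A B =>
    mul_mem (T.memφ hp hφ A) (T.memψ hp B)
  have hprod : ∀ (A A' : Matrix.SpecialLinearGroup (Fin 3) K) (B B' : SL(2, K)),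
      (φ A * sl hp k B) * (φ A' * sl hp k B') = φ (A * A') * sl hp k (B * B') := by
    intro A A' B B'
    rw [map_mul, map_mul]
    calc (φ A * sl hp k B) * (φ A' * sl hp k B') = φ A * (sl hp k B * φ A') * sl hp k B' := by group
      _ = _ := by rw [← hcm A' B]; group
  have hconj : ∀ (A X : Matrix.SpecialLinearGroup (Fin 3) K) (B Y : SL(2, K)),
      φ (A * X * A⁻¹) * sl hp k (B * Y * B⁻¹) =
        (φ A * sl hp k B) * (φ X * sl hp k Y) * (φ A * sl hp k B)⁻¹ := by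
    intro A X B Y
    have e1 : (φ A * sl hp k B)⁻¹ = φ A⁻¹ * sl hp k B⁻¹ := by
      rw [mul_inv_rev, map_inv, map_inv]
      have := hcm A⁻¹ B⁻¹
      rw [map_inv, map_inv] at this
      exact this.symm
    rw [e1, hprod, hprod]
  -- the torus part
  have hκ : φ (dg3 t 1) * sl hp k (dd (t : K) t.ne_zero) ∈ TT D K := by
    have hth : ∀ t : Fin l → Kˣ, th hp t ∈ TT D K := fun t => (thT hp t).2
    rw [phi_dg3 hp hε T.ra T.rn hφ T.hi T.hj, ← th_mulSingle]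
    exact mul_mem (hth _) (hth _)
  refine ⟨φ c3 * sl hp k x2, φ c3 * sl hp k y2, coprime_of_pow (hpow _ _ hn hx2) hns6,
    coprime_of_pow (hpow _ _ hn hy2) hns6, fun g hg => ?_⟩
  have hgc : g ∉ (RGD.B M.toCoxeterSystem hp.isCartan (TT D K) (XX D l K)).normalCore := fun h =>
    hg (Cfsg.Agent.H85.Ore.one_of_core hp hl hG.1 h)
  obtain ⟨c₁, c₂, x, y, ⟨⟨z, hz⟩, w, hw⟩, e⟩ := Cfsg.Agent.H122.SX.pair_h R (G1_eq_top hp _)
    (coord hp) (Cfsg.Agent.Nodes.ChevChart.irr_of hM) (J := {m | m ∈ J})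
    (Pr := fun c₁ c₂ : ↥(D.group K) => (∃ x, c₁ = x * (φ c3 * sl hp k x2) * x⁻¹) ∧
      ∃ y, c₂ = y * (φ c3 * sl hp k y2) * y⁻¹) hκ (fun v hv u hu => by
        obtain ⟨⟨L, L'⟩, hL, rfl⟩ := T.lo hp hφ hε hv
        obtain ⟨⟨U, U'⟩, hU, rfl⟩ := T.up hp hφ hε hu
        rw [T.hom_apply, T.hom_apply, hprod, hprod]
        obtain ⟨a, b, e3⟩ := h3 _ (ns3 hL.1 hU.1 ht)
        obtain ⟨a', b', e2⟩ := h2 _ (ns2 hL.2 hU.2 ht)
        refine ⟨φ (a * c3 * a⁻¹) * sl hp k (a' * x2 * a'⁻¹), φ (b * c3 * b⁻¹) * sl hp k (b' * y2 * b'⁻¹), ?_,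
          ⟨hmem _ _, hmem _ _, ?_, ?_⟩, ⟨_, hconj _ _ _ _⟩, _, hconj _ _ _ _⟩
        · rw [e3, e2, hprod]
        · rw [hconj]
          exact NF.conj (LJ_le_normalizer_VNJ R _ (hmem _ _)) fx'
        · rw [hconj]
          exact NF.conj (LJ_le_normalizer_VJ R _ (hmem _ _)) fy) hgc
  refine ⟨x * z, y * w, ?_⟩
  rw [e, hz, hw]
  group

end Cfsg.Agent.H269.T6
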