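import Cfsg.Agent.H194.Ore.RowEF

/-!
# The Levi subgroup `A₂ × Ã₁` of `F₄` (S2464): the tables (helper269)
-/

set_option autoImplicit false
set_option linter.unusedSectionVars false

namespace Cfsg.Agent.H269.T6

open CoxeterSystem Cfsg.Agent.ChevalleyStructure.CoxeterGeom Cfsg.Agent.Tits.Roots Cfsg.Agent.Tits.Core
  Cfsg.Agent.Nodes.Reps Cfsg.Agent.Nodes.BNOf Cfsg.Agent.Nodes.RGDLib Cfsg.Agent.Nodes.Bruhat
  Cfsg.Agent.Nodes.OppDec Cfsg.Agent.Nodes.LeviDec Cfsg.Agent.Nodes.KindChev Cfsg.Agent.Nodes.ChevCls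
  Cfsg.Agent.OddHalf.NI.ModelChev Cfsg.Agent.Nodes.StabComb
  Cfsg.Agent.H162.GaussDec Cfsg.Agent.H162.GaussLevi Cfsg.Agent.H162.GaussSL Cfsg.Agent.H162.GaussReg
  Cfsg.Agent.H162.GaussPQ
  Cfsg.Agent.H928.Ore.Frame Cfsg.Agent.H928.Ore.Fix
open Cfsg.Lie Cfsg.Agent.ChevalleyStructure Cfsg.Agent.ChevalleyStructure.Elts
  Cfsg.Agent.ChevalleyStructure.RootVec Cfsg.Agent.ChevalleyStructure.NPerm
  Cfsg.Agent.ChevalleyStructure.CoxeterGeomTypes Cfsg.Agent.Nodes.RGDChev Cfsg.Agent.KFacts.RgdChevCoord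
open Cfsg.Agent.TitsThree.KExcRT Cfsg.Agent.H194.Ore

universe u

/-- the table of a Levi subgroup `A₂ × A₁` -/
structure TabT (D : ChevalleyDatum) (l : ℕ) (J : List (Fin l)) (r : Fin 3 → Fin 3 → ℕ) (ε : ℤ)
    (i j k : Fin l) : Prop where
  hi : r 0 1 = D.simple i
  hj : r 1 2 = D.simple j
  ra : RTa D r
  rb : RTb D r fun _ _ => ε
  rc : RTc D r
  rn : ∀ a b, a ≠ b → r b a = D.neg (r a b)
  rJ : ∀ a b, a ≠ b → ∀ m, m ∉ J → vec D l (r a b) m = 0
  kJ : k ∈ J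
  sub : ∀ q < D.nroots, (∀ m, m ∉ J → vec D l q m = 0) → (∃ a b, a ≠ b ∧ r a b = q ∧
    (a < b → ∃ m, 0 < vec D l q m) ∧ (b < a → ∃ m, vec D l q m < 0)) ∨ q = D.simple k ∨ q = D.neg (D.simple k)
  com : ∀ a b, a ≠ b → D.simple k ≠ r a b ∧ D.simple k ≠ D.neg (r a b) ∧ D.commTerms (r a b) (D.simple k) = [] ∧
    D.neg (D.simple k) ≠ r a b ∧ D.neg (D.simple k) ≠ D.neg (r a b) ∧
    D.commTerms (r a b) (D.neg (D.simple k)) = []
  ck : ∀ a b, a ≠ b → D.cartan k (r a b) = 0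
  ij : D.cartan i (D.simple k) = 0 ∧ D.cartan j (D.simple k) = 0
  out : ∀ s < D.nroots, (∃ m, m ∉ J ∧ vec D l s m ≠ 0) → Minus D i j s ∨
    (D.cartan i s = 0 ∧ D.cartan j s = 0 ∧ |D.cartan k s| = 1)

section Tables

variable (D : ChevalleyDatum) (l : ℕ) (J : List (Fin l)) (r : Fin 3 → Fin 3 → ℕ) (i j k : Fin l)

/-- decidable form -/
def ChkX : Prop :=
  r 0 1 = D.simple i ∧ r 1 2 = D.simple j ∧
  (∀ a b, a ≠ b → ∀ m, m ∉ J → vec D l (r a b) m = 0) ∧ k ∈ J ∧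
  (∀ a b, a ≠ b → D.cartan k (r a b) = 0) ∧ (D.cartan i (D.simple k) = 0 ∧ D.cartan j (D.simple k) = 0)

instance : Decidable (ChkX D l J r i j k) := by
  unfold ChkX; infer_instance

/-- decidable form -/
def ChkC : Prop :=
  ∀ a b, a ≠ b → D.simple k ≠ r a b ∧ D.simple k ≠ D.neg (r a b) ∧ D.commTerms (r a b) (D.simple k) = [] ∧
    D.neg (D.simple k) ≠ r a b ∧ D.neg (D.simple k) ≠ D.neg (r a b) ∧
    D.commTerms (r a b) (D.neg (D.simple k)) = []

instance : Decidable (ChkC D l r k) := by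
  unfold ChkC
  refine @Fintype.decidableForallFintype _ _ (fun a => ?_) _
  refine @Fintype.decidableForallFintype _ _ (fun b => ?_) _
  refine @instDecidableForall _ _ inferInstance ?_
  refine @instDecidableAnd _ _ inferInstance ?_
  refine @instDecidableAnd _ _ inferInstance ?_
  refine @instDecidableAnd _ _ inferInstance ?_
  refine @instDecidableAnd _ _ inferInstance ?_
  refine @instDecidableAnd _ _ inferInstance ?_
  infer_instance

/-- decidable form -/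
def ChkY : Prop :=
  ∀ s < D.nroots, (∃ m, m ∉ J ∧ vec D l s m ≠ 0) → Minus D i j s ∨
    (D.cartan i s = 0 ∧ D.cartan j s = 0 ∧ |D.cartan k s| = 1)

instance : Decidable (ChkY D l J i j k) := by
  unfold ChkY; infer_instance

/-- decidable form -/
def ChkZ : Prop :=
  ∀ q < D.nroots, (∀ m, m ∉ J → vec D l q m = 0) → (∃ a b, a ≠ b ∧ r a b = q ∧
    (a < b → ∃ m, 0 < vec D l q m) ∧ (b < a → ∃ m, vec D l q m < 0)) ∨ q = D.simple k ∨ q = D.neg (D.simple k)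

instance : Decidable (ChkZ D l J r k) := by
  unfold ChkZ
  refine @Nat.decidableBallLT _ _ fun q _ => ?_
  refine @instDecidableForall _ _ inferInstance ?_
  refine @instDecidableOr _ _ ?_ inferInstance
  refine @Fintype.decidableExistsFintype _ _ (fun a => ?_) _
  refine @Fintype.decidableExistsFintype _ _ (fun b => ?_) _
  infer_instance

end Tables

theorem xF : ChkX chevF4 4 [3, 2, 0] rL 3 2 0 := by decide +kernel

theorem cF : ChkC chevF4 4 rL 0 := by decide +kernel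

theorem yF : ChkY chevF4 4 [3, 2, 0] 3 2 0 := by decide +kernel

theorem zF : ChkZ chevF4 4 [3, 2, 0] rL 0 := by decide +kernel

theorem tabF : TabT chevF4 4 [3, 2, 0] rL 1 3 2 0 where
  hi := xF.1
  hj := xF.2.1
  ra := rtL.1
  rb := rtL.2.1
  rc := rtL.2.2.1
  rn := rtL.2.2.2
  rJ := xF.2.2.1
  kJ := xF.2.2.2.1
  sub := zF
  com := cF
  ck := xF.2.2.2.2.1
  ij := xF.2.2.2.2.2
  out := yF

end Cfsg.Agent.H269.T6
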